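import Cfsg.Agent.LAE62.PushingUp.Counting
import Cfsg.Agent.LAE62.SubnormalSylow
import Cfsg.Agent.PGroup.Frattini

/-!
Centrally large subgroups in the pushing-up situation.
-/

set_option autoImplicit false

open Subgroup
open scoped Pointwise

namespace Cfsg.Agent.LAE62

universe u

variable {G : Type u} [Group G] {p : ℕ}

/-- `|R| |Z(R)|`. -/
noncomputable def cmeas (R : Subgroup G) : ℕ := Nat.card R * Nat.card (Subgroup.center R)

theorem cmeas_map {H : Type*} [Group H] (f : G →* H) (hf : Function.Injective f) (R : Subgroup G) :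
    cmeas (R.map f) = cmeas R := by
  let e := R.equivMapOfInjective f hf
  rw [cmeas, cmeas, Nat.card_congr (Subgroup.centerCongr e).toEquiv, Nat.card_congr e.toEquiv]

theorem isCentrallyLarge_iff_cmeas {S : Subgroup G} {R : Subgroup S} :
    Cfsg.IsCentrallyLarge R ↔ cmeas (R.map S.subtype) = Cfsg.maxCentralProduct S := by
  rw [cmeas_map _ S.subtype_injective]; rfl

theorem map_equiv_minimal {L : Type*} [Group L] (φ : L ≃* L) {R : Subgroup L}
    (h : Cfsg.IsMinimalCentrallyLarge R) : Cfsg.IsMinimalCentrallyLarge (R.map φ.toMonoidHom) := by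
  have hcm : ∀ R : Subgroup L, Cfsg.IsCentrallyLarge R → Cfsg.IsCentrallyLarge (R.map φ.toMonoidHom) :=
    fun R hR => (cmeas_map φ.toMonoidHom φ.injective R).trans hR
  refine ⟨hcm R h.1, fun R' hle hR' => ?_⟩
  have hb : Cfsg.IsCentrallyLarge (R'.map φ.symm.toMonoidHom) :=
    (cmeas_map φ.symm.toMonoidHom φ.symm.injective R').trans hR'
  have hle' : R'.map φ.symm.toMonoidHom ≤ R := by
    rintro _ ⟨a, ha, rfl⟩
    obtain ⟨b, hb, rfl⟩ := hle ha
    simpa using hb
  rw [← h.2 _ hle' hb, Subgroup.map_map]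
  ext a
  simp

theorem characteristic_commutator_minimal {L : Type*} [Group L] [Finite L] {Q : Subgroup L}
    (hQ : Cfsg.IsMinimalCentrallyLarge Q) : (⁅Q, Q⁆).Characteristic := by
  rw [Subgroup.characteristic_iff_map_eq]
  intro φ
  rw [Subgroup.map_commutator]
  exact (minimal_props (map_equiv_minimal φ hQ) hQ).1

/-- Minimal centrally large subgroups of `S`, as subgroups of `G`. -/
def IsMCLIn (S R : Subgroup G) : Prop := R ≤ S ∧ Cfsg.IsMinimalCentrallyLarge (R.subgroupOf S)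

theorem isMCLIn_map {S : Subgroup G} {R : Subgroup S} :
    IsMCLIn S (R.map S.subtype) ↔ Cfsg.IsMinimalCentrallyLarge R := by
  rw [IsMCLIn, Subgroup.subgroupOf, Subgroup.comap_map_eq_self_of_injective S.subtype_injective]
  exact and_iff_right (Subgroup.map_subtype_le R)

theorem IsMCLIn.conj {S O R : Subgroup G} [hO : O.Normal] (hOS : O ≤ S) (hRO : R ≤ O)
    (h : IsMCLIn S R) (g : G) : IsMCLIn S (cjm g R) := by
  have hle : ∀ R : Subgroup G, R ≤ O → ∀ g : G, cjm g R ≤ O := fun R hR g a ha => by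
    have := hO.conj_mem _ (hR (mem_cjm.1 ha)) g
    simpa [mul_assoc] using this
  have hcm : ∀ R : Subgroup G, R ≤ S → (Cfsg.IsCentrallyLarge (R.subgroupOf S) ↔
      cmeas R = Cfsg.maxCentralProduct S) := fun R hR => by
    rw [isCentrallyLarge_iff_cmeas, Subgroup.map_subgroupOf_eq_of_le hR]
  refine ⟨(hle R hRO g).trans hOS, (hcm _ ((hle R hRO g).trans hOS)).2 ?_, ?_⟩
  · rw [cmeas_map _ (MulAut.conj g).injective]
    exact (hcm R h.1).1 h.2.1
  intro R' hR'le hR'
  set R'' := R'.map S.subtype with hR''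
  have h1 : R'' ≤ cjm g R := (Subgroup.map_mono hR'le).trans (Subgroup.map_comap_le _ _)
  have h2 : cjm g⁻¹ R'' ≤ R := by
    rintro _ ⟨a, ha, rfl⟩
    obtain ⟨b, hb, rfl⟩ := h1 ha
    simpa [mul_assoc] using hb
  have h3 : (cjm g⁻¹ R'').subgroupOf S = R.subgroupOf S := by
    refine h.2.2 _ (Subgroup.comap_mono h2) ((hcm _ (h2.trans h.1)).2 ?_)
    rw [cmeas_map _ (MulAut.conj g⁻¹).injective]
    exact isCentrallyLarge_iff_cmeas.1 hR'
  have h4 : cjm g⁻¹ R'' = R := by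
    rw [← Subgroup.map_subgroupOf_eq_of_le (h2.trans h.1), h3, Subgroup.map_subgroupOf_eq_of_le h.1]
  apply Subgroup.map_injective S.subtype_injective
  rw [Subgroup.map_subgroupOf_eq_of_le ((hle R hRO g).trans hOS), ← hR'', ← h4, cjm, cjm, conj_map_mul',
    mul_inv_cancel, map_one]
  exact (Subgroup.map_id _).symm

theorem cmeas_le_max {S R : Subgroup G} [Finite G] (hR : R ≤ S) :
    cmeas R ≤ Cfsg.maxCentralProduct S := by
  rw [← Subgroup.map_subgroupOf_eq_of_le hR, cmeas_map _ S.subtype_injective]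
  exact le_csSup ((Set.finite_range fun X : Subgroup S => cmeas X).bddAbove.mono
    (by rintro _ ⟨X, hX⟩; exact ⟨X, hX⟩)) ⟨_, rfl⟩

theorem card_center_eq_cen [Finite G] (R : Subgroup G) :
    cmeas R = Nat.card R * Nat.card ↥(R ⊓ centralizer (R : Set G)) := by
  rw [cmeas, card_center_eq]; rfl

theorem card_sup_inf [Finite G] (A N : Subgroup G) [hN : N.Normal] :
    Nat.card ↥(A ⊔ N) * Nat.card ↥(A ⊓ N) = Nat.card A * Nat.card N := by
  rw [← natCard_setMul_mul_inf' A N]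
  congr 1
  rw [sup_comm]
  exact (Nat.card_congr (Equiv.setCongr (by
    rw [Subgroup.coe_mul_of_right_le_normalizer_left N A (le_top.trans (normalizer_eq_top_iff.2 hN).ge)]
    ext a
    constructor
    · rintro ⟨n, hn, x, hx, rfl⟩
      exact ⟨x, hx, x⁻¹ * n * x, hN.conj_mem' n hn x, by simp [mul_assoc]⟩
    · rintro ⟨x, hx, n, hn, rfl⟩
      exact ⟨x * n * x⁻¹, hN.conj_mem n hn x, x, hx, by simp⟩)))

/-- The basic facts of the non-trivial case. -/
structure Ctx [Finite G] (p : ℕ) (S O M W : Subgroup G) : Prop where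
  d : PUData S O M
  sylow : ∃ P : Sylow p G, (P : Subgroup G) = S
  comm : ⁅S, S⁆ ≤ O
  sup : ∀ N : Subgroup G, N.Normal → ∀ x ∈ S, x ∈ N → x ∉ O → N ⊔ S = ⊤
  irr : ∀ T : Subgroup G, O ≤ T → T ≤ S →
    (∀ g ∈ normalizer (S : Set G), ∀ t ∈ T, g * t * g⁻¹ ∈ T) → T = O ∨ T = S
  Weq : W = centralizer (O : Set G)
  Wle : W ≤ O
  Wnormal : W.Normal
  Zle : S ⊓ centralizer (S : Set G) ≤ W
  nt : ∃ x : G, (orderOf x).Coprime p ∧ ∃ w ∈ W, ¬ Commute x w

theorem normal_of_le_center {X : Subgroup G} (h : X ≤ Subgroup.center G) : X.Normal :=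
  ⟨fun a ha g => by rw [Subgroup.mem_center_iff.1 (h ha) g, mul_inv_cancel_right]; exact ha⟩

theorem exists_ctx [Finite G] {p : ℕ} [hp : Fact p.Prime] {S : Subgroup G}
    (hE : Cfsg.IsPushingUpSituation p S)
    (hZ : ¬ S ⊓ centralizer (S : Set G) ≤ Subgroup.center G) :
    ∃ M W : Subgroup G, Ctx p S (Cfsg.pCore p G) M W := by
  obtain ⟨M, d, hcomm, hsup, hirr⟩ := exists_puData hE
  obtain ⟨P, hP⟩ := hE.2.1
  have hchar := hE.2.2.1
  haveI := d.normal
  refine ⟨M, centralizer (Cfsg.pCore p G : Set G), d, ⟨P, hP⟩, hcomm, hsup, hirr, rfl, hchar,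
    inferInstance, inf_le_right.trans (centralizer_anti d.le), ?_⟩
  by_contra hno
  push Not at hno
  apply hZ
  set W := centralizer (Cfsg.pCore p G : Set G) with hW
  have htop : centralizer (W : Set G) ⊔ S = ⊤ := by
    refine eq_top_of_coprime_sylow _ P (fun g hg => Subgroup.mem_sup_left ?_) (hP ▸ le_sup_right)
    rw [Subgroup.mem_centralizer_iff]
    exact fun w hw => (hno g hg w hw).eq.symm
  intro z hz
  have hle : centralizer (W : Set G) ⊔ S ≤ centralizer ({z} : Set G) := by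
    refine sup_le (fun a ha => ?_) (fun a ha => ?_)
    · rw [Subgroup.mem_centralizer_singleton_iff]
      exact (Subgroup.mem_centralizer_iff.1 ha z ((inf_le_right.trans (centralizer_anti d.le)) hz)).symm
    · rw [Subgroup.mem_centralizer_singleton_iff]
      exact Subgroup.mem_centralizer_iff.1 hz.2 a ha
  rw [htop] at hle
  exact Subgroup.mem_center_iff.2 fun g => Subgroup.mem_centralizer_singleton_iff.1 (hle (Subgroup.mem_top g))

theorem Ctx.isPGroup [Finite G] {p : ℕ} {S O M W : Subgroup G} (c : Ctx p S O M W) : IsPGroup p S := by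
  obtain ⟨P, hP⟩ := c.sylow
  exact hP ▸ P.2

theorem Ctx.card_S [Finite G] {p : ℕ} {S O M W : Subgroup G} (c : Ctx p S O M W) :
    Nat.card S = Nat.card O * O.relIndex S := by
  rw [← Subgroup.card_mul_index (O.subgroupOf S),
    Nat.card_congr (Subgroup.subgroupOfEquivOfLe c.d.le).toEquiv]
  rfl

/-- The Thompson hypothesis makes `S` centrally large in itself. -/
theorem maxCentralProduct_eq_cmeas [Finite G] (S : Subgroup G)
    (hJ : S ≤ Subgroup.centralizer (Cfsg.centerThompsonAOf S : Set G)) :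
    Cfsg.maxCentralProduct S = cmeas S := by
  obtain ⟨Q, hQ⟩ := exists_minimalCentrallyLarge (G := S)
  have hX := centrallyLarge_sup_thompson hQ.1
  have h := centralizer_centerThompson_le hX le_sup_right
  have htop : Q ⊔ Cfsg.thompsonSubgroupA S = ⊤ := by
    refine eq_top_iff.2 (le_trans ?_ h)
    intro s _
    rw [Subgroup.mem_centralizer_iff]
    rintro a ⟨ha, ha'⟩
    refine Subtype.ext (Subgroup.mem_centralizer_iff.1 (hJ s.2) (a : G) ⟨⟨a, ha, rfl⟩, Subgroup.mem_centralizer_iff.2 ?_⟩)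
    rintro _ ⟨b, hb, rfl⟩
    exact congrArg Subtype.val (Subgroup.mem_centralizer_iff.1 ha' b hb)
  rw [htop] at hX
  rw [← isCentrallyLarge_iff_cmeas.1 hX, ← MonoidHom.range_eq_map, Subgroup.range_subtype]

theorem Ctx.W_eq_cen [Finite G] {p : ℕ} {S O M W : Subgroup G} (c : Ctx p S O M W) :
    O ⊓ centralizer (O : Set G) = W := by
  rw [← c.Weq]; exact inf_eq_right.2 c.Wle

theorem Ctx.O_centrallyLarge [Finite G] {p : ℕ} [Fact p.Prime] {S O M W : Subgroup G}
    (c : Ctx p S O M W) (hJ : S ≤ Subgroup.centralizer (Cfsg.centerThompsonAOf S : Set G)) :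
    Cfsg.IsCentrallyLarge (O.subgroupOf S) := by
  rw [isCentrallyLarge_iff_cmeas, Subgroup.map_subgroupOf_eq_of_le c.d.le]
  refine le_antisymm (cmeas_le_max c.d.le) ?_
  rw [maxCentralProduct_eq_cmeas S hJ, card_center_eq_cen, card_center_eq_cen, c.W_eq_cen, c.card_S,
    mul_assoc]
  refine Nat.mul_le_mul_left _ (le_trans (Nat.mul_le_mul_left _ (Subgroup.card_le_of_le ?_))
    (fixed_le c.d c.isPGroup c.Wnormal c.Wle c.nt))
  exact le_inf c.Zle inf_le_right

theorem Ctx.exists_mcl_le [Finite G] {p : ℕ} [Fact p.Prime] {S O M W : Subgroup G}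
    (c : Ctx p S O M W) (hJ : S ≤ Subgroup.centralizer (Cfsg.centerThompsonAOf S : Set G)) :
    ∃ R : Subgroup S, Cfsg.IsMinimalCentrallyLarge R ∧ R ≤ O.subgroupOf S := by
  obtain ⟨R, hR, hR'⟩ := exists_minimalCentrallyLarge_le (c.O_centrallyLarge hJ)
  exact ⟨R, hR', hR⟩

theorem exists_cen_not_mem [Finite G] {S : Subgroup G} {O' : Subgroup S} {Q R : Subgroup S}
    (hQ : Cfsg.IsMinimalCentrallyLarge Q) (hR : Cfsg.IsMinimalCentrallyLarge R) (hRO : R ≤ O')
    (hQO : ¬ Q ≤ O') : ∃ z ∈ cen Q, z ∉ O' := by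
  by_contra h
  push Not at h
  apply hQO
  rw [← minimal_eq_inf_sup_cen hQ hR]
  exact sup_le (inf_le_right.trans hRO) h

/-- The derived subgroup of a minimal centrally large subgroup meets the centre centrally, or the join is normal. -/
theorem minimalCL_dichotomy [Finite G] {p : ℕ} [Fact p.Prime] (S : Subgroup G)
    (hE : Cfsg.IsPushingUpSituation p S)
    (hJ : S ≤ Subgroup.centralizer (Cfsg.centerThompsonAOf S : Set G)) (Q₁ : Subgroup ↥S)
    (hQ₁ : Cfsg.IsMinimalCentrallyLarge Q₁) :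
    (S ⊓ centralizer (S : Set G)) ⊓ (⁅Q₁, Q₁⁆).map S.subtype ≤ Subgroup.center G ∨
      ((Cfsg.minimalCentrallyLargeJoin ↥S).map S.subtype).Normal := by
  by_cases hZ : S ⊓ centralizer (S : Set G) ≤ Subgroup.center G
  · exact Or.inl (inf_le_left.trans hZ)
  obtain ⟨M, W, c⟩ := exists_ctx hE hZ
  set O := Cfsg.pCore p G with hO
  haveI := c.d.normal
  obtain ⟨R₀, hR₀, hR₀O⟩ := c.exists_mcl_le hJ
  by_cases hall : ∀ R : Subgroup S, Cfsg.IsMinimalCentrallyLarge R → R ≤ O.subgroupOf S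
  · right
    refine ⟨fun a ha g => ?_⟩
    have hle : (Cfsg.minimalCentrallyLargeJoin ↥S).map S.subtype ≤
        ((Cfsg.minimalCentrallyLargeJoin ↥S).map S.subtype).comap (MulAut.conj g).toMonoidHom := by
      rw [Subgroup.map_le_iff_le_comap]
      refine sSup_le fun R hR => ?_
      rw [← Subgroup.map_le_iff_le_comap]
      intro a ha
      have hconj := (isMCLIn_map.2 hR).conj c.d.le
        ((Subgroup.map_mono (hall R hR)).trans (Subgroup.map_comap_le _ _)) g
      have hmem : g * a * g⁻¹ ∈ cjm g (R.map S.subtype) := ⟨a, ha, rfl⟩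
      exact ⟨⟨_, hconj.1 hmem⟩, (le_sSup (s := {R : Subgroup S | Cfsg.IsMinimalCentrallyLarge R}) hconj.2) hmem, rfl⟩
    exact hle ha
  · left
    push Not at hall
    obtain ⟨Q, hQ, hQO⟩ := hall
    obtain ⟨z, hz, hzO⟩ := exists_cen_not_mem hQ hR₀ hR₀O hQO
    set D := (⁅Q₁, Q₁⁆).map S.subtype with hD
    have hDR : ∀ R : Subgroup G, IsMCLIn S R → ⁅R, R⁆ = D := fun R hR => by
      rw [hD, ← (minimal_props hR.2 hQ₁).1, Subgroup.map_commutator,
        Subgroup.map_subgroupOf_eq_of_le hR.1]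
    haveI hDn : D.Normal := by
      refine ⟨fun a ha g => ?_⟩
      have h1 := isMCLIn_map.2 hR₀
      have h2 := h1.conj c.d.le ((Subgroup.map_mono hR₀O).trans (Subgroup.map_comap_le _ _)) g
      have hmem : MulAut.conj g a ∈ D.map (MulAut.conj g).toMonoidHom := ⟨a, ha, rfl⟩
      rw [← hDR _ h1, Subgroup.map_commutator, hDR _ h2] at hmem
      exact hmem
    have hzD : (z : G) ∈ centralizer (D : Set G) := by
      rw [Subgroup.mem_centralizer_iff]
      intro a ha
      rw [SetLike.mem_coe, ← hDR _ (isMCLIn_map.2 hQ), ← Subgroup.map_commutator] at ha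
      obtain ⟨b, hb, rfl⟩ := ha
      exact congrArg Subtype.val (Subgroup.mem_centralizer_iff.1 hz.2 b (Subgroup.commutator_le_self Q hb))
    have htop := c.sup (centralizer (D : Set G)) inferInstance z z.2 hzD hzO
    intro w hw
    have hle : centralizer (D : Set G) ⊔ S ≤ centralizer ({w} : Set G) := by
      refine sup_le (fun a ha => ?_) (fun a ha => ?_)
      · exact Subgroup.mem_centralizer_singleton_iff.2 (Subgroup.mem_centralizer_iff.1 ha w hw.2).symm
      · exact Subgroup.mem_centralizer_singleton_iff.2 (Subgroup.mem_centralizer_iff.1 hw.1.2 a ha)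
    rw [htop] at hle
    exact Subgroup.mem_center_iff.2 fun g => Subgroup.mem_centralizer_singleton_iff.1 (hle (Subgroup.mem_top g))

theorem mem_omegaOne_iff {A : Subgroup G} (hA : A ≤ centralizer (A : Set G)) {w : G} :
    w ∈ Cfsg.omegaOne p A ↔ w ∈ A ∧ w ^ p = 1 := by
  refine ⟨fun h => ?_, fun h => Subgroup.subset_closure h⟩
  induction h using Subgroup.closure_induction with
  | mem x hx => exact hx
  | one => exact ⟨A.one_mem, one_pow p⟩
  | mul x y _ _ hx hy =>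
    refine ⟨A.mul_mem hx.1 hy.1, ?_⟩
    rw [(show Commute x y from (Subgroup.mem_centralizer_iff.1 (hA hx.1) y hy.1).symm).mul_pow, hx.2, hy.2, one_mul]
  | inv x _ hx => exact ⟨A.inv_mem hx.1, by rw [inv_pow, hx.2, inv_one]⟩

theorem cen_comm (Q : Subgroup G) : cen Q ≤ centralizer (cen Q : Set G) :=
  inf_le_right.trans (centralizer_anti inf_le_left)

theorem cen_map {H : Type*} [Group H] (f : G →* H) (hf : Function.Injective f) (Q : Subgroup G) :
    cen (Q.map f) = (cen Q).map f := by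
  refine le_antisymm ?_ ?_
  · rintro _ ⟨⟨a, ha, rfl⟩, hc⟩
    refine ⟨a, ⟨ha, Subgroup.mem_centralizer_iff.2 fun b hb => hf ?_⟩, rfl⟩
    rw [map_mul, map_mul]
    exact Subgroup.mem_centralizer_iff.1 hc (f b) ⟨b, hb, rfl⟩
  · rintro _ ⟨a, ⟨ha, hc⟩, rfl⟩
    refine ⟨⟨a, ha, rfl⟩, Subgroup.mem_centralizer_iff.2 ?_⟩
    rintro _ ⟨b, hb, rfl⟩
    rw [← map_mul, ← map_mul, Subgroup.mem_centralizer_iff.1 hc b hb]

theorem omegaOneCenter_map {H : Type*} [Group H] (f : G →* H) (hf : Function.Injective f) (Q : Subgroup G) :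
    Cfsg.omegaOneCenter p (Q.map f) = (Cfsg.omegaOneCenter p Q).map f := by
  ext b
  change b ∈ Cfsg.omegaOne p (cen (Q.map f)) ↔ b ∈ (Cfsg.omegaOne p (cen Q)).map f
  rw [mem_omegaOne_iff (cen_comm _), cen_map f hf]
  constructor
  · rintro ⟨⟨a, ha, rfl⟩, hp⟩
    exact ⟨a, (mem_omegaOne_iff (cen_comm _)).2 ⟨ha, hf (by rw [map_pow, hp, map_one])⟩, rfl⟩
  · rintro ⟨a, ha, rfl⟩
    obtain ⟨ha1, ha2⟩ := (mem_omegaOne_iff (cen_comm _)).1 ha
    exact ⟨⟨a, ha1, rfl⟩, by rw [← map_pow, ha2, map_one]⟩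

theorem card_omegaOneCenter_map {H : Type*} [Group H] (f : G →* H) (hf : Function.Injective f)
    (Q : Subgroup G) :
    Nat.card ↥(Cfsg.omegaOneCenter p (Q.map f)) = Nat.card ↥(Cfsg.omegaOneCenter p Q) := by
  rw [omegaOneCenter_map f hf, Subgroup.card_map_of_injective hf]

theorem frattini_map {H : Type*} [Group H] [Finite G] [Fact p.Prime] (f : G →* H)
    (hf : Function.Injective f) (Q : Subgroup G) (hQ : IsPGroup p Q) :
    ((frattini ↥Q).map Q.subtype).map f = (frattini ↥(Q.map f)).map (Q.map f).subtype := by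
  rw [← PGroup.map_frattini hQ (Q.equivMapOfInjective f hf).toMonoidHom (Q.equivMapOfInjective f hf).surjective,
    Subgroup.map_map, Subgroup.map_map]
  rfl

theorem bddAbove_omega (p : ℕ) (S : Type u) [Group S] [Finite S] :
    BddAbove {k : ℕ | ∃ Q : Subgroup S, Cfsg.IsMinimalCentrallyLarge Q ∧ Nat.card ↥(Cfsg.omegaOneCenter p Q) = k} :=
  (Set.finite_range fun Q : Subgroup S => Nat.card ↥(Cfsg.omegaOneCenter p Q)).bddAbove.mono
    (by rintro _ ⟨X, -, hX⟩; exact ⟨X, hX⟩)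

theorem exists_max_omega (p : ℕ) (S : Type u) [Group S] [Finite S] :
    ∃ Q : Subgroup S, Cfsg.IsMinimalCentrallyLarge Q ∧
      Nat.card ↥(Cfsg.omegaOneCenter p Q) = Cfsg.maxOmegaCenterOfMinimalCL p S := by
  obtain ⟨Q, hQ⟩ := exists_minimalCentrallyLarge (G := S)
  exact Nat.sSup_mem
    (show {k : ℕ | ∃ Q : Subgroup S, Cfsg.IsMinimalCentrallyLarge Q ∧
      Nat.card ↥(Cfsg.omegaOneCenter p Q) = k}.Nonempty from ⟨_, Q, hQ, rfl⟩) (bddAbove_omega p S)

/-- A minimal centrally large subgroup with largest `Ω₁Z` outside `O` has the same Frattini subgroup as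
one inside. -/
theorem Ctx.frattini_le [Finite G] {p : ℕ} [hp : Fact p.Prime] {S O M W : Subgroup G}
    (c : Ctx p S O M W) (hJ : S ≤ Subgroup.centralizer (Cfsg.centerThompsonAOf S : Set G))
    {Q : Subgroup S} (hQ : Cfsg.IsMinimalCentrallyLarge Q)
    (hmax : Nat.card ↥(Cfsg.omegaOneCenter p Q) = Cfsg.maxOmegaCenterOfMinimalCL p S) :
    ∃ R : Subgroup S, Cfsg.IsMinimalCentrallyLarge R ∧
      Nat.card ↥(Cfsg.omegaOneCenter p R) = Cfsg.maxOmegaCenterOfMinimalCL p S ∧ R ≤ O.subgroupOf S ∧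
      (frattini ↥(Q.map S.subtype)).map (Q.map S.subtype).subtype ≤
        (frattini ↥(R.map S.subtype)).map (R.map S.subtype).subtype := by
  classical
  haveI hOn := c.d.normal
  haveI hWn := c.Wnormal
  have hSp := c.isPGroup
  obtain ⟨R₀, hR₀, hR₀O⟩ := c.exists_mcl_le hJ
  set Qg := Q.map S.subtype with hQg
  have hQS : Qg ≤ S := Subgroup.map_subtype_le Q
  set cQ := cen Qg with hcQ
  set Q₀ := Qg ⊓ O with hQ₀
  have hCQ : S ⊓ centralizer (Qg : Set G) ≤ Qg := fun a ha => by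
    refine ⟨⟨a, ha.1⟩, (centrallyLarge_iff.1 hQ.1).2 (Subgroup.mem_centralizer_iff.2 fun b hb => ?_), rfl⟩
    exact Subtype.ext (Subgroup.mem_centralizer_iff.1 ha.2 (b : G) ⟨b, hb, rfl⟩)
  have hdec : Q₀ ⊔ cQ = Qg := by
    refine le_antisymm (sup_le inf_le_left inf_le_left) ?_
    have h := congrArg (Subgroup.map S.subtype) (minimal_eq_inf_sup_cen hQ hR₀)
    rw [Subgroup.map_sup, ← cen_map _ S.subtype_injective] at h
    conv_lhs => rw [hQg, ← h]
    exact sup_le_sup (le_inf (Subgroup.map_mono inf_le_left)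
      ((Subgroup.map_mono (inf_le_right.trans hR₀O)).trans (Subgroup.map_comap_le _ _))) le_rfl
  have hWO : O ≤ centralizer (W : Set G) := by
    rw [Subgroup.le_centralizer_iff, c.Weq]
  set T := Qg ⊔ O with hT
  have hTS : T ≤ S := sup_le hQS c.d.le
  have hWQ : W ⊓ Qg ≤ cQ := fun w hw => by
    refine ⟨hw.2, ?_⟩
    have hle : Q₀ ⊔ cQ ≤ centralizer ({w} : Set G) := by
      refine sup_le (fun a ha => ?_) (fun a ha => ?_)
      · exact Subgroup.mem_centralizer_singleton_iff.2 (Subgroup.mem_centralizer_iff.1 (hWO ha.2) w hw.1).symm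
      · exact Subgroup.mem_centralizer_singleton_iff.2 (Subgroup.mem_centralizer_iff.1 ha.2 w hw.2).symm
    rw [hdec] at hle
    exact Subgroup.mem_centralizer_iff.2 fun a ha => Subgroup.mem_centralizer_singleton_iff.1 (hle ha)
  have hCT : ∀ V : Subgroup G, V ≤ W → V ⊓ centralizer (T : Set G) = V ⊓ Qg := by
    intro V hV
    refine le_antisymm (le_inf inf_le_left fun v hv => hCQ
      ⟨c.d.le (c.Wle (hV hv.1)), centralizer_anti le_sup_left hv.2⟩) (le_inf inf_le_left fun v hv => ?_)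
    rw [hT, centralizer_sup']
    exact ⟨(hWQ ⟨hV hv.1, hv.2⟩).2, (c.Weq ▸ hV hv.1 : v ∈ centralizer (O : Set G))⟩
  set W₁ := W ⊓ Qg with hW₁
  set R := Q₀ ⊔ W with hR
  set cR := (cQ ⊓ O) ⊔ W with hcR
  have hRO : R ≤ O := sup_le inf_le_right c.Wle
  have hRS : R ≤ S := hRO.trans c.d.le
  have hcRR : cR ≤ R ⊓ centralizer (R : Set G) := by
    refine le_inf (sup_le_sup_right (inf_le_inf_right _ inf_le_left) _) ?_
    rw [hR, centralizer_sup']
    refine sup_le (le_inf ((inf_le_left.trans inf_le_right).trans (centralizer_anti inf_le_left))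
      (inf_le_right.trans hWO)) (le_inf ?_ ?_)
    · exact (Subgroup.le_centralizer_iff.1 hWO).trans (centralizer_anti inf_le_right)
    · exact (Subgroup.le_centralizer_iff.1 hWO).trans (centralizer_anti c.Wle)
  -- product formulas
  have hcQT : cQ ⊔ O = T := by
    refine le_antisymm (sup_le_sup_right inf_le_left _) (sup_le ?_ le_sup_right)
    rw [← hdec]
    exact sup_le (inf_le_right.trans le_sup_right) le_sup_left
  have e1 : Nat.card T * Nat.card Q₀ = Nat.card Qg * Nat.card O := card_sup_inf Qg O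
  have e2 : Nat.card T * Nat.card ↥(cQ ⊓ O) = Nat.card cQ * Nat.card O := hcQT ▸ card_sup_inf cQ O
  have e3 : Nat.card R * Nat.card W₁ = Nat.card Q₀ * Nat.card W := by
    have := card_sup_inf Q₀ W
    rwa [show Q₀ ⊓ W = W₁ by
      rw [hQ₀, hW₁, inf_assoc, inf_eq_right.2 c.Wle, inf_comm]] at this
  have e4 : Nat.card cR * Nat.card W₁ = Nat.card ↥(cQ ⊓ O) * Nat.card W := by
    have := card_sup_inf (cQ ⊓ O) W
    rwa [show cQ ⊓ O ⊓ W = W₁ by
      rw [inf_assoc, inf_eq_right.2 c.Wle]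
      exact le_antisymm (le_inf inf_le_right (inf_le_left.trans inf_le_left)) (le_inf hWQ inf_le_left)] at this
  have hoff : Nat.card T * Nat.card W₁ ≤ Nat.card O * Nat.card W := by
    have := offender_le c.d hSp hWn c.Wle c.nt hWO c.comm c.irr (le_sup_right : O ≤ T) hTS
    rwa [hCT W le_rfl] at this
  have hf : Cfsg.maxCentralProduct S = Nat.card Qg * Nat.card cQ := by
    rw [← isCentrallyLarge_iff_cmeas.1 hQ.1, card_center_eq_cen]; rfl
  have hRmeas : Nat.card R * Nat.card cR ≤ cmeas R := by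
    rw [card_center_eq_cen]; exact Nat.mul_le_mul_left _ (Subgroup.card_le_of_le hcRR)
  have hRle := cmeas_le_max hRS
  have hTW : 0 < Nat.card T * Nat.card W₁ := Nat.mul_pos Nat.card_pos Nat.card_pos
  have hprod : (Nat.card R * Nat.card cR) * ((Nat.card T * Nat.card W₁) * (Nat.card T * Nat.card W₁)) =
      (Nat.card Qg * Nat.card cQ) * ((Nat.card O * Nat.card W) * (Nat.card O * Nat.card W)) := by
    calc _ = (Nat.card R * Nat.card W₁) * (Nat.card cR * Nat.card W₁) * (Nat.card T * Nat.card T) := by ring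
      _ = (Nat.card Q₀ * Nat.card W) * (Nat.card ↥(cQ ⊓ O) * Nat.card W) * (Nat.card T * Nat.card T) := by rw [e3, e4]
      _ = (Nat.card T * Nat.card Q₀) * (Nat.card T * Nat.card ↥(cQ ⊓ O)) * (Nat.card W * Nat.card W) := by ring
      _ = _ := by rw [e1, e2]; ring
  have hge : Nat.card Qg * Nat.card cQ ≤ Nat.card R * Nat.card cR := by
    refine Nat.le_of_mul_le_mul_right ?_ (Nat.mul_pos hTW hTW)
    rw [hprod]
    exact Nat.mul_le_mul_left _ (Nat.mul_le_mul hoff hoff)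
  have heqc : cmeas R = Cfsg.maxCentralProduct S := le_antisymm hRle (hf ▸ hge.trans hRmeas)
  have hmeq : Nat.card R * Nat.card cR = Nat.card Qg * Nat.card cQ :=
    le_antisymm (by rw [← hf]; exact hRmeas.trans hRle) hge
  have hW1eq : Nat.card T * Nat.card W₁ = Nat.card O * Nat.card W := by
    rw [hmeq] at hprod
    exact Nat.mul_self_inj.1 (Nat.eq_of_mul_eq_mul_left (Nat.mul_pos Nat.card_pos Nat.card_pos) hprod)
  have hcardR : Nat.card R = Nat.card Qg := by
    refine Nat.eq_of_mul_eq_mul_right hTW ?_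
    calc Nat.card R * (Nat.card T * Nat.card W₁) = (Nat.card R * Nat.card W₁) * Nat.card T := by ring
      _ = (Nat.card T * Nat.card Q₀) * Nat.card W := by rw [e3]; ring
      _ = Nat.card Qg * (Nat.card O * Nat.card W) := by rw [e1]; ring
      _ = Nat.card Qg * (Nat.card T * Nat.card W₁) := by rw [hW1eq]
  have hRCL : Cfsg.IsCentrallyLarge (R.subgroupOf S) := by
    rw [isCentrallyLarge_iff_cmeas, Subgroup.map_subgroupOf_eq_of_le hRS]; exact heqc
  obtain ⟨R₁, hR₁le, hR₁⟩ := exists_minimalCentrallyLarge_le hRCL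
  have hR₁eq : R₁ = R.subgroupOf S := by
    refine Subgroup.eq_of_le_of_card_ge hR₁le ?_
    rw [← (minimal_props hQ hR₁).2.1, Nat.card_congr (Subgroup.subgroupOfEquivOfLe hRS).toEquiv, hcardR,
      hQg, Subgroup.card_map_of_injective S.subtype_injective]
  subst hR₁eq
  -- elements of order `p`
  have hWc : W ≤ centralizer (W : Set G) := c.Wle.trans hWO
  set U := Cfsg.omegaOne p W with hU
  have hUW : U ≤ W := fun u hu => ((mem_omegaOne_iff hWc).1 hu).1
  have hUn : U.Normal := ⟨fun u hu g => by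
    obtain ⟨h1, h2⟩ := (mem_omegaOne_iff hWc).1 hu
    exact (mem_omegaOne_iff hWc).2 ⟨hWn.conj_mem u h1 g, by rw [conj_pow, h2, mul_one, mul_inv_cancel]⟩⟩
  haveI := hUn
  have hUnt : ∃ x : G, (orderOf x).Coprime p ∧ ∃ w ∈ U, ¬ Commute x w := by
    by_contra hno
    push Not at hno
    obtain ⟨x, hx, w, hw, hxw⟩ := c.nt
    exact hxw (commute_of_omega hWn (hSp.to_le (c.Wle.trans c.d.le))
      (Subgroup.le_centralizer_iff_isMulCommutative.1 hWc) hx
      (fun v hv hvp => hno x hx v ((mem_omegaOne_iff hWc).2 ⟨hv, hvp⟩)) w hw)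
  set Ω := Cfsg.omegaOneCenter p Qg with hΩ
  have hΩm : ∀ a, a ∈ Ω ↔ a ∈ cQ ∧ a ^ p = 1 := fun a => mem_omegaOne_iff (cen_comm Qg)
  have hΩQ : Ω ≤ cQ := fun a ha => ((hΩm a).1 ha).1
  set ΩR := Cfsg.omegaOneCenter p R with hΩR
  have hle : (Ω ⊓ O) ⊔ U ≤ ΩR := by
    refine sup_le (fun a ha => ?_) (fun a ha => ?_)
    · exact (mem_omegaOne_iff (cen_comm R)).2
        ⟨hcRR (Subgroup.mem_sup_left ⟨hΩQ ha.1, ha.2⟩), ((hΩm a).1 ha.1).2⟩
    · obtain ⟨h1, h2⟩ := (mem_omegaOne_iff hWc).1 ha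
      exact (mem_omegaOne_iff (cen_comm R)).2 ⟨hcRR (Subgroup.mem_sup_right h1), h2⟩
  have e5 : Nat.card ↥((Ω ⊓ O) ⊔ U) * Nat.card ↥(U ⊓ Qg) = Nat.card ↥(Ω ⊓ O) * Nat.card U := by
    have := card_sup_inf (Ω ⊓ O) U
    rwa [show Ω ⊓ O ⊓ U = U ⊓ Qg by
      refine le_antisymm (le_inf inf_le_right ((inf_le_left.trans inf_le_left).trans (hΩQ.trans inf_le_left))) ?_
      intro a ha
      exact ⟨⟨(hΩm a).2 ⟨hWQ ⟨hUW ha.1, ha.2⟩, ((mem_omegaOne_iff hWc).1 ha.1).2⟩, c.Wle (hUW ha.1)⟩, ha.1⟩] at this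
  have hoffU : Nat.card T * Nat.card ↥(U ⊓ Qg) ≤ Nat.card O * Nat.card U := by
    have := offender_le c.d hSp hUn (hUW.trans c.Wle) hUnt (hWO.trans (centralizer_anti hUW)) c.comm c.irr
      (le_sup_right : O ≤ T) hTS
    rwa [hCT U hUW] at this
  have e6 : Nat.card ↥(Ω ⊔ O) * Nat.card ↥(Ω ⊓ O) = Nat.card Ω * Nat.card O := card_sup_inf Ω O
  have hΩT : Ω ⊔ O ≤ T := sup_le_sup_right (hΩQ.trans inf_le_left) _
  have hchain : Nat.card Ω * Nat.card O ≤ Nat.card ↥(Ω ⊓ O) * Nat.card T ∧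
      Nat.card ↥(Ω ⊓ O) * Nat.card T ≤ Nat.card ΩR * Nat.card O := by
    refine ⟨by rw [← e6, mul_comm]; exact Nat.mul_le_mul_left _ (Subgroup.card_le_of_le hΩT), ?_⟩
    refine Nat.le_of_mul_le_mul_right ?_ (Nat.card_pos (α := ↥(U ⊓ Qg)))
    calc Nat.card ↥(Ω ⊓ O) * Nat.card T * Nat.card ↥(U ⊓ Qg)
        ≤ Nat.card ↥(Ω ⊓ O) * (Nat.card O * Nat.card U) := by
          rw [mul_assoc]; exact Nat.mul_le_mul_left _ hoffU
      _ = Nat.card ↥((Ω ⊓ O) ⊔ U) * Nat.card ↥(U ⊓ Qg) * Nat.card O := by rw [e5]; ring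
      _ ≤ Nat.card ΩR * Nat.card ↥(U ⊓ Qg) * Nat.card O :=
          Nat.mul_le_mul_right _ (Nat.mul_le_mul_right _ (Subgroup.card_le_of_le hle))
      _ = _ := by ring
  have hΩmax : Nat.card Ω = Cfsg.maxOmegaCenterOfMinimalCL p S := by
    rw [hΩ, hQg, card_omegaOneCenter_map _ S.subtype_injective, hmax]
  have hΩRcard : Nat.card ↥(Cfsg.omegaOneCenter p (R.subgroupOf S)) = Nat.card ΩR := by
    rw [← card_omegaOneCenter_map _ S.subtype_injective, Subgroup.map_subgroupOf_eq_of_le hRS]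
  have hΩRle : Nat.card ΩR ≤ Nat.card Ω := by
    rw [hΩmax, ← hΩRcard]
    exact le_csSup (bddAbove_omega p S) ⟨_, hR₁, rfl⟩
  have hTeq : Ω ⊔ O = T := by
    refine Subgroup.eq_of_le_of_card_ge hΩT (Nat.le_of_mul_le_mul_left ?_ (Nat.card_pos (α := ↥(Ω ⊓ O))))
    rw [mul_comm (Nat.card ↥(Ω ⊓ O)) (Nat.card ↥(Ω ⊔ O)), e6]
    exact hchain.2.trans (Nat.mul_le_mul_right _ hΩRle)
  have hΩReq : Nat.card ΩR = Cfsg.maxOmegaCenterOfMinimalCL p S := by
    rw [← hΩmax]
    exact le_antisymm hΩRle (Nat.le_of_mul_le_mul_right (hchain.1.trans hchain.2) Nat.card_pos)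
  refine ⟨R.subgroupOf S, hR₁, hΩRcard.trans hΩReq, Subgroup.comap_mono hRO, ?_⟩
  rw [Subgroup.map_subgroupOf_eq_of_le hRS]
  refine le_trans ?_ (PGroup.map_subtype_frattini_mono (p := p) (hSp.to_le hRS) (le_sup_left : Q₀ ≤ R))
  set Φ₀ := (frattini ↥Q₀).map Q₀.subtype with hΦ₀
  have hΩc : ∀ e ∈ Ω, ∀ a ∈ Qg, Commute a e := fun e he a ha =>
    Subgroup.mem_centralizer_iff.1 (hΩQ he).2 a ha
  have hQdec : ∀ x ∈ Qg, ∃ q ∈ Q₀, ∃ e ∈ Ω, q * e = x := by
    intro x hx
    obtain ⟨e, he, o, ho, rfl⟩ := Subgroup.mem_sup_of_normal_right.1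
      (hTeq.ge ((le_sup_left : Qg ≤ T) hx))
    have hoQ : o ∈ Qg := by
      have := Qg.mul_mem (Qg.inv_mem ((hΩQ he).1)) hx
      rwa [inv_mul_cancel_left] at this
    exact ⟨o, ⟨hoQ, ho⟩, e, he, (hΩc e he o hoQ).eq⟩
  have hQ₀p : IsPGroup p Q₀ := hSp.to_le (inf_le_left.trans hQS)
  rw [Subgroup.map_le_iff_le_comap]
  refine PGroup.frattini_le_of_commutator_le_of_pow_mem hp.1 ?_ fun x => ?_
  · have hQeq : Q₀ ⊔ Ω = Qg := le_antisymm (sup_le inf_le_left (hΩQ.trans inf_le_left))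
      fun x hx => by obtain ⟨q, hq, e, he, rfl⟩ := hQdec x hx; exact Subgroup.mul_mem_sup hq he
    rw [← Subgroup.map_le_iff_le_comap, map_subtype_commutator, ← hQeq,
      commutator_sup_central (show Ω ≤ centralizer ((Q₀ ⊔ Ω : Subgroup G) : Set G) from
        hQeq.symm ▸ hΩQ.trans inf_le_right), ← map_subtype_commutator]
    exact Subgroup.map_mono (PGroup.commutator_le_frattini hQ₀p)
  · obtain ⟨q, hq, e, he, hqe⟩ := hQdec x x.2
    rw [Subgroup.mem_comap, map_pow, Subgroup.coe_subtype, ← hqe, (hΩc e he q hq.1).mul_pow,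
      ((hΩm e).1 he).2, mul_one]
    exact ⟨⟨q, hq⟩ ^ p, PGroup.pow_mem_frattini hQ₀p _, rfl⟩

/-- `Z(S)` is central or `S_Φ` is normal. -/
theorem frattiniJoin_dichotomy [Finite G] {p : ℕ} [Fact p.Prime] (S : Subgroup G)
    (hE : Cfsg.IsPushingUpSituation p S)
    (hJ : S ≤ Subgroup.centralizer (Cfsg.centerThompsonAOf S : Set G)) :
    S ⊓ centralizer (S : Set G) ≤ Subgroup.center G ∨
      ((Cfsg.frattiniOfMinimalCLJoin p ↥S).map S.subtype).Normal := by
  by_cases hZ : S ⊓ centralizer (S : Set G) ≤ Subgroup.center G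
  · exact Or.inl hZ
  obtain ⟨M, W, c⟩ := exists_ctx hE hZ
  set O := Cfsg.pCore p G with hO
  haveI := c.d.normal
  have hSp := c.isPGroup
  right
  set J := Cfsg.frattiniOfMinimalCLJoin p ↥S with hJdef
  have hQp : ∀ Q : Subgroup S, IsPGroup p Q := fun Q => hSp.to_subgroup Q
  have hin : ∀ R : Subgroup S, Cfsg.IsMinimalCentrallyLarge R →
      Nat.card ↥(Cfsg.omegaOneCenter p R) = Cfsg.maxOmegaCenterOfMinimalCL p S →
      (frattini ↥(R.map S.subtype)).map (R.map S.subtype).subtype ≤ J.map S.subtype := by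
    intro R hR hRm
    rw [← frattini_map _ S.subtype_injective R (hQp R)]
    exact Subgroup.map_mono (le_iSup (fun Q : {Q : Subgroup S // Cfsg.IsMinimalCentrallyLarge Q ∧
      Nat.card ↥(Cfsg.omegaOneCenter p Q) = Cfsg.maxOmegaCenterOfMinimalCL p S} =>
        (frattini ↥(Q : Subgroup S)).map (Q : Subgroup S).subtype) ⟨R, hR, hRm⟩)
  refine ⟨fun a ha g => ?_⟩
  have hle : J.map S.subtype ≤ (J.map S.subtype).comap (MulAut.conj g).toMonoidHom := by
    rw [Subgroup.map_le_iff_le_comap]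
    refine iSup_le fun Q => ?_
    rw [← Subgroup.map_le_iff_le_comap, frattini_map _ S.subtype_injective _ (hQp _)]
    obtain ⟨R, hR, hRm, hRO, hQR⟩ := c.frattini_le hJ Q.2.1 Q.2.2
    refine hQR.trans ?_
    set Rg := R.map S.subtype with hRg
    have hRp : IsPGroup p Rg := hSp.to_le (Subgroup.map_subtype_le R)
    have hconj := (isMCLIn_map.2 hR).conj c.d.le
      ((Subgroup.map_mono hRO).trans (Subgroup.map_comap_le _ _)) g
    have hom : Nat.card ↥(Cfsg.omegaOneCenter p ((cjm g Rg).subgroupOf S)) =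
        Cfsg.maxOmegaCenterOfMinimalCL p S := by
      rw [← card_omegaOneCenter_map _ S.subtype_injective, Subgroup.map_subgroupOf_eq_of_le hconj.1,
        card_omegaOneCenter_map _ (MulAut.conj g).injective,
        card_omegaOneCenter_map _ S.subtype_injective, hRm]
    have h := hin _ hconj.2 hom
    rw [Subgroup.map_subgroupOf_eq_of_le hconj.1, ← frattini_map _ (MulAut.conj g).injective Rg hRp] at h
    rwa [Subgroup.map_le_iff_le_comap] at h
  exact hle ha

theorem exists_elementaryAbelian_of_frattiniJoin_eq_bot {S : Type u} [Group S] [Finite S] {p : ℕ}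
    [Fact p.Prime] (hS : IsPGroup p S) (h : Cfsg.frattiniOfMinimalCLJoin p S = ⊥) :
    ∃ Q : Subgroup S, Cfsg.IsMinimalCentrallyLarge Q ∧ Cfsg.IsElementaryAbelian p Q := by
  obtain ⟨Q, hQ, hQm⟩ := exists_max_omega p S
  refine ⟨Q, hQ, ?_⟩
  have hbot : frattini ↥Q = ⊥ := by
    have h1 : (frattini ↥Q).map Q.subtype ≤ ⊥ := h ▸ le_iSup (fun Q : {Q : Subgroup S //
      Cfsg.IsMinimalCentrallyLarge Q ∧
      Nat.card ↥(Cfsg.omegaOneCenter p Q) = Cfsg.maxOmegaCenterOfMinimalCL p S} =>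
        (frattini ↥(Q : Subgroup S)).map (Q : Subgroup S).subtype) ⟨Q, hQ, hQm⟩
    exact (Subgroup.map_eq_bot_iff_of_injective _ Q.subtype_injective).1 (le_bot_iff.1 h1)
  obtain ⟨hab, hpow⟩ := (PGroup.frattini_eq_bot_iff (hS.to_subgroup Q)).1 hbot
  exact ⟨hab, fun a ha => congrArg Subtype.val (hpow ⟨a, ha⟩)⟩

end Cfsg.Agent.LAE62
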